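import Mathlib
import Cfsg.Agent.Lib.Helper35.JR.Defs

set_option autoImplicit false

/-! # JR [V0] (S3206) -/

namespace Cfsg.Agent.Lib.Helper96.JR

open Cfsg Cfsg.Agent.Lib.Helper35.JR

universe u

theorem mat2_ext {F : Type u} [Field F] {p q r s p' q' r' s' : F} (h1 : p = p') (h2 : q = q')
    (h3 : r = r') (h4 : s = s') : !![p, q; r, s] = !![p', q'; r', s'] := by
  subst h1 h2 h3 h4; rfl

theorem smul_mat2 {F : Type u} [Field F] (c x y z w : F) :
    c • !![x, y; z, w] = !![c * x, c * y; c * z, c * w] := by
  ext i j; fin_cases i <;> fin_cases j <;> simp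

theorem smul_one2 {F : Type u} [Field F] (c : F) :
    c • (1 : Matrix (Fin 2) (Fin 2) F) = !![c, 0; 0, c] := by
  ext i j; fin_cases i <;> fin_cases j <;> simp

/-- [V0] -/
theorem pkgV0 : PkgV0.{u} := by
  intro F _ h2 a b hab M hA hB
  obtain ⟨p, q, r, s, rfl⟩ : ∃ p q r s : F, M = !![p, q; r, s] :=
    ⟨M 0 0, M 0 1, M 1 0, M 1 1, by ext i j; fin_cases i <;> fin_cases j <;> rfl⟩
  have hab0 : a ≠ 0 ∨ b ≠ 0 := by
    by_contra hc
    push Not at hc
    rw [hc.1, hc.2] at hab
    norm_num at hab
  have hcancel : ∀ z : F, 2 * z = 0 → z = 0 := fun z hz =>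
    (mul_eq_zero.mp hz).resolve_left h2
  rw [Matrix.mul_fin_two, Matrix.mul_fin_two] at hA hB
  rcases hA with hA | hA
  · -- commutes with A : q = -r, s = p
    have e1 : p * 0 + q * 1 = 0 * p + -1 * r := congrFun (congrFun hA 0) 0
    have e2 : p * -1 + q * 0 = 0 * q + -1 * s := congrFun (congrFun hA 0) 1
    have hq : q = -r := by linear_combination e1
    have hs : s = p := by linear_combination e2
    rcases hB with hB | hB
    · -- commutes with B : r = 0
      have f1 : p * a + q * b = a * p + b * r := congrFun (congrFun hB 0) 0
      have f2 : p * b + q * -a = a * q + b * s := congrFun (congrFun hB 0) 1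
      have g1 : r * b = 0 := hcancel _ (by rw [hq] at f1; linear_combination -f1)
      have g2 : r * a = 0 := hcancel _ (by rw [hq, hs] at f2; linear_combination f2)
      have hr : r = 0 := by
        rcases hab0 with h | h
        · exact (mul_eq_zero.mp g2).resolve_right h
        · exact (mul_eq_zero.mp g1).resolve_right h
      refine ⟨p, Or.inl ?_⟩
      rw [smul_one2]
      exact mat2_ext rfl (by rw [hq, hr, neg_zero]) hr hs
    · -- anticommutes with B : p = 0
      have f1 : p * a + q * b = -(a * p + b * r) := congrFun (congrFun hB 0) 0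
      have f2 : p * b + q * -a = -(a * q + b * s) := congrFun (congrFun hB 0) 1
      have g1 : p * a = 0 := hcancel _ (by rw [hq] at f1; linear_combination f1)
      have g2 : p * b = 0 := hcancel _ (by rw [hq, hs] at f2; linear_combination f2)
      have hp : p = 0 := by
        rcases hab0 with h | h
        · exact (mul_eq_zero.mp g1).resolve_right h
        · exact (mul_eq_zero.mp g2).resolve_right h
      refine ⟨r, Or.inr (Or.inl ?_)⟩
      rw [smul_mat2]
      exact mat2_ext (by rw [hp, mul_zero]) (by rw [hq]; ring) (by ring) (by rw [hs, hp, mul_zero])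
  · -- anticommutes with A : q = r, s = -p
    have e1 : p * 0 + q * 1 = -(0 * p + -1 * r) := congrFun (congrFun hA 0) 0
    have e2 : p * -1 + q * 0 = -(0 * q + -1 * s) := congrFun (congrFun hA 0) 1
    have hr : r = q := by linear_combination -e1
    have hs : s = -p := by linear_combination -e2
    rcases hB with hB | hB
    · -- commutes with B : p b = q a
      have f2 : p * b + q * -a = a * q + b * s := congrFun (congrFun hB 0) 1
      have g : p * b - q * a = 0 := hcancel _ (by rw [hs] at f2; linear_combination f2)
      rcases hab0 with h | h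
      · refine ⟨p / a, Or.inr (Or.inr (Or.inl ?_))⟩
        rw [smul_mat2]
        have k1 : p = p / a * a := by field_simp
        have k2 : q = p / a * b := by field_simp; linear_combination -g
        exact mat2_ext k1 k2 (by rw [hr]; exact k2) (by rw [hs]; field_simp)
      · refine ⟨q / b, Or.inr (Or.inr (Or.inl ?_))⟩
        rw [smul_mat2]
        have k1 : p = q / b * a := by field_simp; linear_combination g
        have k2 : q = q / b * b := by field_simp
        exact mat2_ext k1 k2 (by rw [hr]; exact k2) (by rw [hs]; field_simp; linear_combination -g)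
    · -- anticommutes with B : p a + q b = 0
      have f1 : p * a + q * b = -(a * p + b * r) := congrFun (congrFun hB 0) 0
      have g : p * a + q * b = 0 := hcancel _ (by rw [hr] at f1; linear_combination f1)
      have hAB : (!![0, -1; 1, 0] * !![a, b; b, -a] : Matrix (Fin 2) (Fin 2) F) = !![-b, a; a, b] := by
        rw [Matrix.mul_fin_two]
        exact mat2_ext (by ring) (by ring) (by ring) (by ring)
      rw [hAB]
      rcases hab0 with h | h
      · refine ⟨q / a, Or.inr (Or.inr (Or.inr ?_))⟩
        rw [smul_mat2]
        have k1 : p = q / a * -b := by field_simp; linear_combination g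
        have k2 : q = q / a * a := by field_simp
        exact mat2_ext k1 k2 (by rw [hr]; exact k2) (by rw [hs]; field_simp; linear_combination -g)
      · refine ⟨-(p / b), Or.inr (Or.inr (Or.inr ?_))⟩
        rw [smul_mat2]
        have k1 : p = -(p / b) * -b := by field_simp
        have k2 : q = -(p / b) * a := by field_simp; linear_combination g
        exact mat2_ext k1 k2 (by rw [hr]; exact k2) (by rw [hs]; field_simp)

end Cfsg.Agent.Lib.Helper96.JR
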